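import Cfsg.Agent.TwoGroups.WreathEight.Main
import Cfsg.Prelude.Def_Transfer

/-! Centre, normaliser quotient and elementary abelian normal subgroups. -/

set_option autoImplicit false
set_option linter.unusedSectionVars false

namespace Cfsg.Agent.TwoGroups.WreathEight

variable {S : Type*} [Group S] [Finite S] {P : Subgroup S} {ι : ℕ → S}

namespace Coded

variable (C : Coded P ι)
include C

theorem card : Nat.card P = 128 := by
  classical
  have e : (P : Set S) = ↑((Finset.range 128).image ι) := by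
    ext s
    rw [Finset.coe_image]
    simp only [Set.mem_image, Finset.mem_coe, Finset.mem_range]
    exact C.mem s
  rw [show Nat.card P = (P : Set S).ncard from Nat.card_coe_set_eq _, e, Set.ncard_coe_finset,
    Finset.card_image_of_injOn (fun a ha b hb h => C.inj a (Finset.mem_range.1 ha) b (Finset.mem_range.1 hb) h),
    Finset.card_range]

theorem center_iff {x : ℕ} (hx : x < 128) : (∀ p ∈ P, p * ι x = ι x * p) ↔ x = 0 ∨ x = 15 := by
  have hc := eq_of_beq (allB_spec center_spec hx)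
  constructor
  · intro h
    have e : ∀ y, y < 128 → cmB x y = true := fun y hy => (C.commute_iff hx hy).2 (h _ (C.ι_mem hy)).symm
    rw [e 1 (by norm_num), e 16 (by norm_num), e 64 (by norm_num)] at hc
    simpa using hc.symm
  · intro h p hp
    obtain ⟨y, hy, rfl⟩ := (C.mem p).1 hp
    have : allB 128 (fun y => cmB 0 y && cmB 15 y) = true := by decide +kernel
    have := allB_spec this hy
    rw [Bool.and_eq_true] at this
    rcases h with rfl | rfl
    · exact ((C.commute_iff hx hy).1 this.1).symm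
    · exact ((C.commute_iff hx hy).1 this.2).symm

variable (h2 : IsPGroup 2 S) (hr : Cfsg.SectionalPRankLE 2 4 S)
include h2 hr

theorem center_eq : Subgroup.center S = (Subgroup.center ↥P).map P.subtype ∧
    Nat.card ↥(Subgroup.center S) = 2 ∧ ∀ s, s ∈ Subgroup.center S ↔ s = 1 ∨ s = ι 15 := by
  haveI : Fact (Nat.Prime 2) := ⟨Nat.prime_two⟩
  have hle : Subgroup.center S ≤ (Subgroup.center ↥P).map P.subtype := fun s hs => by
    have hsP : s ∈ P := C.centralizer_le h2 hr (Subgroup.mem_centralizer_iff.2 fun p _ => Subgroup.mem_center_iff.1 hs p)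
    exact ⟨⟨s, hsP⟩, Subgroup.mem_center_iff.2 fun p => Subtype.ext (Subgroup.mem_center_iff.1 hs _), rfl⟩
  have hZP : ∀ s, s ∈ (Subgroup.center ↥P).map P.subtype ↔ s = 1 ∨ s = ι 15 := by
    intro s
    constructor
    · rintro ⟨a, ha, rfl⟩
      obtain ⟨x, hx, e⟩ := (C.mem _).1 a.2
      rcases (C.center_iff hx).1 (fun p hp => by
        rw [e]; exact congrArg Subtype.val (Subgroup.mem_center_iff.1 ha ⟨p, hp⟩)) with rfl | rfl
      · exact Or.inl (e.symm.trans C.one)
      · exact Or.inr e.symm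
    · rintro (rfl | rfl)
      · exact Subgroup.one_mem _
      · exact ⟨⟨ι 15, C.ι_mem (by norm_num)⟩, Subgroup.mem_center_iff.2 fun p =>
          Subtype.ext ((C.center_iff (by norm_num)).2 (Or.inr rfl) p p.2), rfl⟩
  haveI : Nontrivial S := ⟨⟨ι 15, 1, fun h => absurd ((C.eq_one_iff (by norm_num)).1 h) (by norm_num)⟩⟩
  haveI := h2.center_nontrivial
  obtain ⟨⟨z, hz⟩, hz1⟩ := exists_ne (1 : Subgroup.center S)
  have hz15 : z = ι 15 := ((hZP z).1 (hle hz)).resolve_left fun h => hz1 (Subtype.ext h)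
  have hmem : ∀ s, s ∈ Subgroup.center S ↔ s = 1 ∨ s = ι 15 := fun s => ⟨fun h => (hZP s).1 (hle h), fun h => by
    rcases h with rfl | rfl
    · exact Subgroup.one_mem _
    · exact hz15 ▸ hz⟩
  refine ⟨Subgroup.ext fun s => (hmem s).trans (hZP s).symm, ?_, hmem⟩
  rw [show Nat.card ↥(Subgroup.center S) = ((Subgroup.center S : Subgroup S) : Set S).ncard from Nat.card_coe_set_eq _,
    show ((Subgroup.center S : Subgroup S) : Set S) = {1, ι 15} from Set.ext fun s => (hmem s).trans (by simp)]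
  exact Set.ncard_pair fun h => absurd ((C.eq_one_iff (by norm_num)).1 h.symm) (by norm_num)

variable (hP : P ≠ ⊤)
include hP

theorem relIndex_eq : P.relIndex (Subgroup.normalizer (P : Set S)) = 2 := by
  obtain ⟨g, k, hgN, -, -, hg, ⟨h, hz, e⟩, hall⟩ := C.outer h2 hr hP
  have hh : h < 128 := by omega
  rw [Subgroup.relIndex, Subgroup.index_eq_two_iff]
  refine ⟨⟨g, hgN⟩, fun b => ?_⟩
  simp only [Subgroup.mem_subgroupOf, Subgroup.coe_mul]
  rcases hall b b.2 with hb | hb
  · refine Or.inr ⟨hb, fun h' => hg ((Subgroup.mul_mem_cancel_left P hb).1 h')⟩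
  · refine Or.inl ⟨?_, fun hbP => hg (P.inv_mem_iff.1 ((Subgroup.mul_mem_cancel_right P hbP).1 hb))⟩
    rw [show (b : S) * g = (g * (g⁻¹ * b) * g⁻¹) * (g * g) by group, ← e]
    exact P.mul_mem ((Subgroup.mem_normalizer_iff.1 hgN _).1 hb) (C.ι_mem hh)

theorem quotient_iso : ∃ (_ : ((Subgroup.center S).subgroupOf (Subgroup.normalizer (P : Set S))).Normal)
    (T : Sylow 2 (Equiv.Perm (Fin 8))),
      Nonempty (↥(Subgroup.normalizer (P : Set S)) ⧸ (Subgroup.center S).subgroupOf (Subgroup.normalizer (P : Set S)) ≃*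
        ↥(T : Subgroup (Equiv.Perm (Fin 8)))) := by
  have hrel := C.relIndex_eq h2 hr hP
  obtain ⟨-, hZc, hZm⟩ := C.center_eq h2 hr
  obtain ⟨g, k, hgN, hk, hA, hg, ⟨h, hz, hsq⟩, -⟩ := C.outer h2 hr hP
  set N := Subgroup.normalizer (P : Set S)
  have hk8 : k < 8 := by omega
  have hh : h < 128 := by omega
  haveI hn : ((Subgroup.center S).subgroupOf N).Normal := inferInstance
  refine ⟨hn, syl, ?_⟩
  set Q := ↥N ⧸ (Subgroup.center S).subgroupOf N
  have hPN : ∀ {x : ℕ}, x < 128 → ι x ∈ N := fun hx => Subgroup.le_normalizer (C.ι_mem hx)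
  have hJ : ∀ i, J ι g i ∈ N := fun i => mul_mem (hPN (Nat.mod_lt i (by norm_num))) (pow_mem hgN _)
  let q : ℕ → Q := fun i => QuotientGroup.mk ⟨J ι g i, hJ i⟩
  have hc := List.all_eq_true.1 cert_spec (k, h) (by rcases hk with rfl | rfl <;> rcases hz with rfl | rfl <;> simp)
  rw [Bool.and_eq_true, beq_iff_eq] at hc
  have hcx : ∀ {x : ℕ}, x < 128 → ct k h x < 256 ∧ (x = 0 ∨ ¬ (ct k h x = 0 ∨ ct k h x = 15)) ∧
      ∀ j < 3, eqZ k h (ct k h (M x (G j))) (T k h (ct k h x) (ct k h (G j))) = true := by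
    intro x hx
    have := allB_spec hc.2 hx
    simp only [Bool.and_eq_true, decide_eq_true_eq, Bool.or_eq_true, beq_iff_eq, Bool.not_eq_true',
      Bool.or_eq_false_iff, beq_eq_false_iff_ne] at this
    exact ⟨this.1.1, this.1.2.imp id (fun h => by rintro (e | e) <;> simp_all), fun j hj => allB_spec this.2 hj⟩
  have hqmul : ∀ {i j : ℕ}, i < 256 → j < 256 → q (T k h i j) = q i * q j := by
    intro i j hi hj
    show _ = QuotientGroup.mk ((⟨J ι g i, hJ i⟩ : N) * (⟨J ι g j, hJ j⟩ : N))
    exact congrArg QuotientGroup.mk (Subtype.ext (C.J_mul hk8 hA hh hsq hi hj).2)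
  have hq15 : q 15 = 1 := by
    refine (QuotientGroup.eq_one_iff _).2 (Subgroup.mem_subgroupOf.2 ((hZm _).2 (Or.inr ?_)))
    simp [J]
  let f : ℕ → Q := fun x => q (ct k h x)
  have hgen : ∀ {x : ℕ}, x < 128 → ∀ j < 3, f (M x (G j)) = f x * f (G j) := by
    intro x hx j hj
    have b0 := M_bound hx (G_bound hj)
    have he := (hcx hx).2.2 j hj
    rw [eqZ, Bool.or_eq_true, beq_iff_eq, beq_iff_eq] at he
    simp only [f]
    rw [← hqmul (hcx hx).1 (hcx (G_bound hj)).1]
    rcases he with he | he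
    · rw [he]
    · rw [← he, hqmul (hcx b0).1 (by norm_num), hq15, mul_one]
  have hf0 : f 0 = 1 := by
    simp only [f]; rw [hc.1]
    refine (QuotientGroup.eq_one_iff _).2 (Subgroup.mem_subgroupOf.2 ((hZm _).2 (Or.inl ?_)))
    simp [J, C.one]
  have hfold : ∀ (w : List ℕ), (∀ j ∈ w, j < 3) → ∀ x y, x < 128 → y < 128 → f (M x y) = f x * f y →
      f (M x (w.foldl (fun r j => M r ([1, 16, 64].getD j 0)) y)) =
        f x * f (w.foldl (fun r j => M r ([1, 16, 64].getD j 0)) y) := by
    intro w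
    induction w with
    | nil => exact fun _ x y _ _ e => e
    | cons j w ih =>
      intro hw x y hx hy e
      have hj : j < 3 := hw j (List.mem_cons_self ..)
      have hG : [1, 16, 64].getD j 0 = G j := by rcases j with _ | _ | _ | j <;> first | rfl | omega
      simp only [List.foldl_cons]
      refine ih (fun i hi => hw i (List.mem_cons_of_mem _ hi)) _ _ hx (M_bound hy (hG ▸ G_bound hj)) ?_
      rw [hG, hgen hy j hj, ← mul_assoc, ← e, ← hgen (M_bound hx hy) j hj]
      congr 1
      refine C.inj _ (M_bound hx (M_bound hy (G_bound hj))) _ (M_bound (M_bound hx hy) (G_bound hj)) ?_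
      rw [C.mul _ hx _ (M_bound hy (G_bound hj)), C.mul _ hy _ (G_bound hj), C.mul _ (M_bound hx hy) _ (G_bound hj),
        C.mul _ hx _ hy, mul_assoc]
  have hfmul : ∀ {x y : ℕ}, x < 128 → y < 128 → f (M x y) = f x * f y := by
    intro x y hx hy
    have hw := allB_spec words_spec hy
    rw [Bool.and_eq_true, List.all_eq_true, beq_iff_eq] at hw
    have := hfold _ (fun j hj => of_decide_eq_true (hw.1 j hj)) x 0 hx (by norm_num) (by
      rw [hf0, mul_one]
      exact congrArg f (C.inj _ (M_bound hx (by norm_num)) _ hx (by rw [C.mul _ hx _ (by norm_num), C.one, mul_one])))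
    rwa [show (words.getD y []).foldl (fun r j => M r ([1, 16, 64].getD j 0)) 0 = y from hw.2] at this
  have hinj : ∀ {x : ℕ}, x < 128 → f x = 1 → x = 0 := by
    intro x hx e
    refine (hcx hx).2.1.resolve_right fun hne => hne ?_
    have he := Subgroup.mem_subgroupOf.1 ((QuotientGroup.eq_one_iff _).1 e)
    rcases (hZm _).1 he with e1 | e1
    · exact Or.inl (C.J_inj hg (hcx hx).1 (by norm_num) (e1.trans (by simp [J, C.one])))
    · exact Or.inr (C.J_inj hg (hcx hx).1 (by norm_num) (e1.trans (by simp [J])))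
  let e : Fin 128 ≃ (syl : Subgroup (Equiv.Perm (Fin 8))) := Equiv.ofBijective (fun x => ⟨perm x, x, rfl⟩)
    ⟨fun x y h => perm_injective (congrArg Subtype.val h), fun ⟨_, x, hx⟩ => ⟨x, Subtype.ext hx⟩⟩
  have hesymm : ∀ a b, e.symm (a * b) = ⟨M (e.symm a) (e.symm b), M_bound (e.symm a).2 (e.symm b).2⟩ := by
    intro a b
    rw [Equiv.symm_apply_eq]
    refine Subtype.ext ?_
    show ((a * b : (syl : Subgroup (Equiv.Perm (Fin 8)))) : Equiv.Perm (Fin 8)) = perm _
    rw [perm_mul, Subgroup.coe_mul, ← congrArg Subtype.val (e.apply_symm_apply a),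
      ← congrArg Subtype.val (e.apply_symm_apply b)]
    rfl
  let Φ : (syl : Subgroup (Equiv.Perm (Fin 8))) →* Q := MonoidHom.mk' (fun a => f (e.symm a)) fun a b => by
    rw [hesymm]; exact hfmul (e.symm a).2 (e.symm b).2
  have hΦ : Function.Injective Φ := by
    rw [injective_iff_map_eq_one]
    intro a ha
    have h0 : ((e.symm a : Fin 128) : ℕ) = 0 := hinj (e.symm a).2 ha
    rw [← e.apply_symm_apply a, show e.symm a = 0 from Fin.ext h0]
    exact Subtype.ext perm_zero
  refine ⟨(MulEquiv.ofBijective Φ ((Nat.bijective_iff_injective_and_card _).2 ⟨hΦ, ?_⟩)).symm⟩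
  have h1 := (P.subgroupOf N).card_mul_index
  rw [Nat.card_congr (Subgroup.subgroupOfEquivOfLe (Subgroup.le_normalizer (H := P))).toEquiv, C.card,
    show (P.subgroupOf N).index = 2 from hrel] at h1
  have h2' := ((Subgroup.center S).subgroupOf N).card_mul_index
  rw [Nat.card_congr (Subgroup.subgroupOfEquivOfLe (Subgroup.center_le_normalizer (P : Set S))).toEquiv, hZc,
    Subgroup.index, ← h1] at h2'
  have : Nat.card Q = 128 := Nat.eq_of_mul_eq_mul_left (by norm_num : 0 < 2) (h2'.trans (by norm_num))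
  rw [this, show Nat.card (syl : Subgroup (Equiv.Perm (Fin 8))) = 128 from image_card]

theorem normalizer_eq (V : Subgroup S) (hVP : V ≤ P) (hn : ∀ g ∈ P, ∀ v ∈ V, g * v * g⁻¹ ∈ V)
    (hV : Cfsg.IsElementaryAbelian 2 V) (hcard : Nat.card V = 16) : Subgroup.normalizer (V : Set S) = P := by
  haveI : Fact (Nat.Prime 2) := ⟨Nat.prime_two⟩
  haveI : Group.IsNilpotent S := h2.isNilpotent
  have hPle : P ≤ Subgroup.normalizer (V : Set S) := fun p hp => by
    refine Subgroup.mem_normalizer_iff.2 fun v => ⟨fun hv => hn p hp v hv, fun hv => ?_⟩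
    have := hn p⁻¹ (P.inv_mem hp) _ hv
    rwa [show p⁻¹ * (p * v * p⁻¹) * p⁻¹⁻¹ = v by group] at this
  refine le_antisymm ?_ hPle
  intro m hm
  by_contra hmP
  set M' := Subgroup.normalizer (V : Set S)
  haveI : Group.IsNilpotent M' := inferInstance
  have hlt : P.subgroupOf M' < Subgroup.normalizer ((P.subgroupOf M' : Subgroup M') : Set M') := by
    refine normalizerCondition_of_isNilpotent _ (lt_top_iff_ne_top.2 fun h => hmP ?_)
    exact Subgroup.subgroupOf_eq_top.1 h hm
  obtain ⟨x, hx, hxP⟩ := SetLike.exists_of_lt hlt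
  have hxN : (x : S) ∈ Subgroup.normalizer (P : Set S) := by
    refine Subgroup.mem_normalizer_iff.2 fun p => ?_
    constructor
    · intro hp
      exact Subgroup.mem_subgroupOf.1 ((Subgroup.mem_normalizer_iff.1 hx ⟨p, hPle hp⟩).1 (Subgroup.mem_subgroupOf.2 hp))
    · intro hp
      have h1 := (Subgroup.mem_normalizer_iff.1 (inv_mem hx) ⟨_, hPle hp⟩).1 (Subgroup.mem_subgroupOf.2 hp)
      rw [Subgroup.mem_subgroupOf] at h1
      simpa [mul_assoc] using h1
  obtain ⟨g, k, hgN, hk, hA, hg, -, hall⟩ := C.outer h2 hr hP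
  have hxP' : (x : S) ∉ P := fun h => hxP (Subgroup.mem_subgroupOf.2 h)
  have hgV : g ∈ M' := by
    have h1 := (hall _ hxN).resolve_left hxP'
    have := mul_mem x.2 (inv_mem (hPle h1))
    rwa [show (x : S) * (g⁻¹ * x)⁻¹ = g by group] at this
  have hsub : (V : Set S) ⊆ {ι 0, ι 15, ι 3, ι 12} := by
    intro v hv
    obtain ⟨y, hy, rfl⟩ := (C.mem v).1 (hVP hv)
    have h2y : M y y = 0 := (C.eq_one_iff (M_bound hy hy)).1 (by rw [C.mul _ hy _ hy, ← sq]; exact hV.2 _ hv)
    have hk8 : k < 8 := by omega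
    have ha := (al_bound hk8 hy).1
    have hav : ι (al k y) ∈ V := by rw [← hA y hy]; exact (Subgroup.mem_normalizer_iff.1 hgV _).1 hv
    have key : ∀ w, w < 128 → ι w ∈ V → ∀ u, u < 128 → cmB y (cj u w) = true := by
      intro w hw hwV u hu
      refine (C.commute_iff hy (C.cj_bound hu hw)).2 ?_
      rw [C.cj_eq hu hw]
      exact congrArg Subtype.val (hV.1.is_comm.comm ⟨ι y, hv⟩ ⟨_, hn _ (C.ι_mem hu) _ hwV⟩)
    have := allB_spec ((List.all_eq_true.1 normal_spec) k (by rcases hk with rfl | rfl <;> simp)) hy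
    rw [show (allB 128 fun u => cmB y (cj u y)) = true from
        List.all_eq_true.2 fun u hu => key y hy hv u (List.mem_range.1 hu),
      show (allB 128 fun u => cmB y (cj u (al k y))) = true from
        List.all_eq_true.2 fun u hu => key _ ha hav u (List.mem_range.1 hu), h2y] at this
    simp at this
    rcases this with ((rfl | rfl) | rfl) | rfl <;> simp
  have h1 := Set.ncard_le_ncard hsub (Set.toFinite _)
  rw [← Nat.card_coe_set_eq, show Nat.card (V : Set S) = 16 from hcard] at h1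
  have h4 := Set.ncard_insert_le (ι 0) ({ι 15, ι 3, ι 12} : Set S)
  have h5 := Set.ncard_insert_le (ι 15) ({ι 3, ι 12} : Set S)
  have h6 := Set.ncard_insert_le (ι 3) ({ι 12} : Set S)
  rw [Set.ncard_singleton] at h6
  omega

end Coded

end Cfsg.Agent.TwoGroups.WreathEight
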