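import Cfsg.Agent.TwoGroups.WreathEight.Data
import Mathlib

/-! Checked facts on the tables: the group of order 128, its automorphisms and their extensions. -/

set_option autoImplicit false
set_option maxRecDepth 20000

namespace Cfsg.Agent.TwoGroups.WreathEight

/-- Bounded universal quantifier. -/
def allB (n : ℕ) (p : ℕ → Bool) : Bool := (List.range n).all p

theorem allB_spec {n : ℕ} {p : ℕ → Bool} (h : allB n p = true) {i : ℕ} (hi : i < n) : p i = true :=
  List.all_eq_true.1 h i (List.mem_range.2 hi)

/-- Conjugation. -/
def cj (u x : ℕ) : ℕ := M (M u x) (I u)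

/-- Evaluation of a word in three elements. -/
def evW (t : List ℕ) (w : List ℕ) : ℕ := w.foldl (fun r j => M r (t.getD j 0)) 0

/-- The map determined by the images of the generators. -/
def ev (t : List ℕ) (x : ℕ) : ℕ := evW t (words.getD x [])

def cmB (x y : ℕ) : Bool := M x y == M y x

def fourth (x : ℕ) : ℕ := M (M x x) (M x x)

/-- Relations satisfied by the generators. -/
def rel1 (a b : ℕ) : Bool := fourth (M a b) == 0

def rel2 (a b c : ℕ) : Bool := cmB a (M (M c a) c) && cmB a (M (M c b) c) && cmB b (M (M c b) c)

/-- The product on pairs coded below 256. -/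
def T (k h i j : ℕ) : ℕ :=
  if i < 128 then 128 * (j / 128) + M i (j % 128)
  else if j < 128 then 128 + M (i % 128) (al k j) else M (M (i % 128) (al k (j % 128))) h

def inMask (m x : ℕ) : Bool := (m >>> x) % 2 == 1

def maskList (m : ℕ) : List ℕ := (List.range 256).filter (inMask m)

def witIdx (k h : ℕ) : ℕ := 2 * k + (if h = 0 then 0 else 1)

/-- A section elementary abelian of order 32. -/
def witOk (k h : ℕ) : Bool :=
  let mH := witH.getD (witIdx k h) 0
  let mK := witK.getD (witIdx k h) 0
  let Hs := maskList mH
  let Ks := maskList mK
  inMask mH 0 && inMask mK 0 && Ks.all (inMask mH) && Hs.all (fun a => Hs.all fun b => inMask mH (T k h a b)) &&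
    Ks.all (fun a => Ks.all fun b => inMask mK (T k h a b)) && Hs.all (fun a => inMask mK (T k h a a)) &&
    Hs.all (fun a => Ks.all fun b => Ks.any fun c => T k h a b == T k h c a) &&
    decide (Hs.length = 32 * Ks.length) && decide (0 < Ks.length)

theorem M_lt : allB 128 (fun x => allB 128 fun y => decide (M x y < 128)) = true := by decide +kernel

theorem act_lt : allB 128 (fun x => allB 8 fun i => decide (act x i < 8)) = true := by decide +kernel

theorem act_mul : allB 128 (fun x => allB 128 fun y => allB 8 fun i => act (M x y) i == act x (act y i)) = true := by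
  decide +kernel

theorem act_zero : allB 8 (fun i => act 0 i == i) = true := by decide +kernel

theorem I_spec : allB 128 (fun x => decide (I x < 128) && M x (I x) == 0 && M (I x) x == 0) = true := by decide +kernel

theorem faithful : allB 128 (fun x => x == 0 || !(allB 8 fun i => act x i == i)) = true := by decide +kernel

theorem words_spec : allB 128 (fun x => (words.getD x []).all (fun j => decide (j < 3)) &&
    evW [1, 16, 64] (words.getD x []) == x) = true := by decide +kernel

theorem gens_rel : (rel1 1 16 && rel2 1 16 64 && M 1 1 == 0 && M 16 16 == 0 && M 64 64 == 0) = true := by decide +kernel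

theorem center_spec : allB 128 (fun x => (cmB x 1 && cmB x 16 && cmB x 64) == (x == 0 || x == 15)) = true := by
  decide +kernel

theorem reps_spec : allB 128 (fun a => !(M a a == 0) || a == 0 ||
    (List.range 128).any fun u => reps.contains (cj u a)) = true := by decide +kernel

/-- The normal forms of the automorphisms. -/
theorem class_spec : reps.all (fun a => allB 128 fun b => !(M b b == 0 && rel1 a b) ||
    allB 128 fun c => !(M c c == 0 && rel2 a b c && !(ev [a, b, c] 15 == 0)) ||
      (List.range 128).any fun u => cj u a == a && L.any fun l => [cj u a, cj u b, cj u c] == l) = true := by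
  decide +kernel

theorem al_spec : allB 8 (fun k => allB 128 fun x => decide (al k x < 128) && al k x == ev (L.getD k []) x) = true := by
  decide +kernel

theorem L_zero : L.getD 0 [] = [1, 16, 64] := by decide +kernel

theorem square_spec : allB 8 (fun k => allB 128 fun h => !(al k h == h &&
    allB 3 (fun j => M h (G j) == M (al k (al k (G j))) h)) ||
      ((h == 0 || h == 15) && (k == 4 || k == 7 || witOk k h))) = true := by decide +kernel

/-- Compositions of the surviving automorphisms are not surviving ones. -/
theorem comp_spec : [(4, 7), (7, 4)].all (fun p => allB 128 fun u => [0, 4, 7].all fun i =>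
    !(allB 3 fun j => cj u (al i (G j)) == al p.1 (al p.2 (G j)))) = true := by decide +kernel

theorem sq_comp_spec : allB 8 (fun k => allB 128 fun u => [4, 7].all fun i =>
    !(allB 3 fun j => cj u (al i (G j)) == al k (al k (G j)))) = true := by decide +kernel

/-- The certified map onto the quotient by the centre. -/
def ct (k h x : ℕ) : ℕ := byteAt (cert k h) x

def eqZ (k h i j : ℕ) : Bool := i == j || T k h i 15 == j

theorem cert_spec : [(4, 0), (4, 15), (7, 0), (7, 15)].all (fun p => ct p.1 p.2 0 == 0 &&
    allB 128 fun x => decide (ct p.1 p.2 x < 256) &&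
      (x == 0 || !(ct p.1 p.2 x == 0 || ct p.1 p.2 x == 15)) &&
      allB 3 fun j => eqZ p.1 p.2 (ct p.1 p.2 (M x (G j))) (T p.1 p.2 (ct p.1 p.2 x) (ct p.1 p.2 (G j)))) = true := by
  decide +kernel

/-- Few elements lie in a normal elementary abelian subgroup invariant under a survivor. -/
theorem normal_spec : [4, 7].all (fun k => allB 128 fun x => x == 0 || x == 15 || x == 3 || x == 12 ||
    !(M x x == 0 && (allB 128 fun v => cmB x (cj v x)) && (allB 128 fun v => cmB x (cj v (al k x))))) = true := by
  decide +kernel

end Cfsg.Agent.TwoGroups.WreathEight
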