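import Cfsg.Agent.TwoGroups.WreathEight.Model
import Cfsg.Prelude.Def_CaseTheorems

/-! A coded subgroup `P`, and elements normalising it. -/

set_option autoImplicit false
set_option linter.unusedSectionVars false

namespace Cfsg.Agent.TwoGroups.WreathEight

variable {S : Type*} [Group S]

/-- `ι` codes the subgroup `P` by the table. -/
structure Coded (P : Subgroup S) (ι : ℕ → S) : Prop where
  mul : ∀ x < 128, ∀ y < 128, ι (M x y) = ι x * ι y
  inj : ∀ x < 128, ∀ y < 128, ι x = ι y → x = y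
  mem : ∀ g, g ∈ P ↔ ∃ x < 128, ι x = g

/-- `g` induces the `k`-th normal form. -/
def Acts (ι : ℕ → S) (g : S) (k : ℕ) : Prop := ∀ x < 128, g * ι x * g⁻¹ = ι (al k x)

theorem G_bound {j : ℕ} (hj : j < 3) : G j < 128 := by
  rcases j with _ | _ | _ | j <;> simp [G] <;> omega

theorem al_bound {k x : ℕ} (hk : k < 8) (hx : x < 128) : al k x < 128 ∧ al k x = ev (L.getD k []) x := by
  have h := allB_spec (allB_spec al_spec hk) hx
  rw [Bool.and_eq_true, decide_eq_true_eq, beq_iff_eq] at h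
  exact h

namespace Coded

variable {P : Subgroup S} {ι : ℕ → S} (C : Coded P ι)
include C

theorem one : ι 0 = 1 := by
  have h := C.mul 0 (by norm_num) 0 (by norm_num)
  rw [show M 0 0 = 0 by decide +kernel] at h
  exact (left_eq_mul.1 h)

theorem inv {x : ℕ} (hx : x < 128) : ι (I x) = (ι x)⁻¹ := by
  rw [eq_inv_iff_mul_eq_one, ← C.mul _ (I_bound hx).1 _ hx, (I_bound hx).2.2, C.one]

theorem ι_mem {x : ℕ} (hx : x < 128) : ι x ∈ P := (C.mem _).2 ⟨x, hx, rfl⟩

theorem cj_bound {u x : ℕ} (hu : u < 128) (hx : x < 128) : cj u x < 128 :=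
  have _ := C
  M_bound (M_bound hu hx) (I_bound hu).1

theorem cj_eq {u x : ℕ} (hu : u < 128) (hx : x < 128) : ι (cj u x) = ι u * ι x * (ι u)⁻¹ := by
  rw [cj, C.mul _ (M_bound hu hx) _ (I_bound hu).1, C.mul _ hu _ hx, C.inv hu]

theorem eq_one_iff {x : ℕ} (hx : x < 128) : ι x = 1 ↔ x = 0 :=
  ⟨fun h => C.inj x hx 0 (by norm_num) (h.trans C.one.symm), fun h => by rw [h, C.one]⟩

theorem commute_iff {x y : ℕ} (hx : x < 128) (hy : y < 128) : cmB x y = true ↔ Commute (ι x) (ι y) := by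
  rw [cmB, beq_iff_eq]
  refine ⟨fun h => ?_, fun h => C.inj _ (M_bound hx hy) _ (M_bound hy hx) ?_⟩
  · show ι x * ι y = ι y * ι x
    rw [← C.mul _ hx _ hy, ← C.mul _ hy _ hx, h]
  · rw [C.mul _ hx _ hy, C.mul _ hy _ hx]; exact h

theorem fold_gens {g : S} {t : List ℕ}
    (ht : ∀ j < 3, t.getD j 0 < 128 ∧ g * ι (G j) * g⁻¹ = ι (t.getD j 0)) (w : List ℕ) :
    (∀ j ∈ w, j < 3) → ∀ r r', r < 128 → r' < 128 → g * ι r * g⁻¹ = ι r' →
    w.foldl (fun r j => M r ([1, 16, 64].getD j 0)) r < 128 ∧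
    w.foldl (fun r j => M r (t.getD j 0)) r' < 128 ∧
    g * ι (w.foldl (fun r j => M r ([1, 16, 64].getD j 0)) r) * g⁻¹ =
      ι (w.foldl (fun r j => M r (t.getD j 0)) r') := by
  induction w with
  | nil => exact fun _ r r' hr hr' e => ⟨hr, hr', e⟩
  | cons j w ih =>
    intro hw r r' hr hr' e
    have hj : j < 3 := hw j (List.mem_cons_self ..)
    have hG : [1, 16, 64].getD j 0 = G j := by rcases j with _ | _ | _ | j <;> first | rfl | omega
    simp only [List.foldl_cons]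
    refine ih (fun i hi => hw i (List.mem_cons_of_mem _ hi)) _ _ (M_bound hr (hG ▸ G_bound hj))
      (M_bound hr' (ht j hj).1) ?_
    rw [hG, C.mul _ hr _ (G_bound hj), C.mul _ hr' _ (ht j hj).1, ← e, ← (ht j hj).2]
    group

theorem ev_spec {g : S} {t : List ℕ}
    (ht : ∀ j < 3, t.getD j 0 < 128 ∧ g * ι (G j) * g⁻¹ = ι (t.getD j 0)) {x : ℕ} (hx : x < 128) :
    ev t x < 128 ∧ g * ι x * g⁻¹ = ι (ev t x) := by
  have h := allB_spec words_spec hx
  rw [Bool.and_eq_true, List.all_eq_true, beq_iff_eq] at h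
  obtain ⟨-, h2, h3⟩ := C.fold_gens ht _ (fun j hj => of_decide_eq_true (h.1 j hj)) 0 0 (by norm_num) (by norm_num)
    (by rw [C.one, mul_one, mul_inv_cancel])
  refine ⟨h2, ?_⟩
  conv_lhs => rw [← h.2]
  exact h3

theorem acts_of_gens {g : S} {k : ℕ} (hk : k < 8) (h : ∀ j < 3, g * ι (G j) * g⁻¹ = ι (al k (G j))) :
    Acts ι g k := by
  intro x hx
  have hg : ∀ j < 3, (L.getD k []).getD j 0 = al k (G j) := by
    have : allB 8 (fun k => allB 3 fun j => (L.getD k []).getD j 0 == al k (G j)) = true := by decide +kernel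
    exact fun j hj => eq_of_beq (allB_spec (allB_spec this hk) hj)
  rw [(al_bound hk hx).2]
  refine (C.ev_spec (fun j hj => ?_) hx).2
  rw [hg j hj]
  exact ⟨(al_bound hk (G_bound hj)).1, h j hj⟩

/-- Every element normalising `P` induces a normal form, after an inner adjustment. -/
theorem normal_form {g : S} (hg : g ∈ Subgroup.normalizer (P : Set S)) :
    ∃ u < 128, ∃ k < 8, Acts ι (ι u * g) k := by
  have himg : ∀ x < 128, ∃ y < 128, ι y = g * ι x * g⁻¹ := fun x hx =>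
    (C.mem _).1 ((Subgroup.mem_normalizer_iff.1 hg _).1 (C.ι_mem hx))
  obtain ⟨a, ha, ea⟩ := himg 1 (by norm_num)
  obtain ⟨b, hb, eb⟩ := himg 16 (by norm_num)
  obtain ⟨c, hc, ec⟩ := himg 64 (by norm_num)
  let φ : S →* S := (MulAut.conj g).toMonoidHom
  have ea' : ι a = φ (ι 1) := ea
  have eb' : ι b = φ (ι 16) := eb
  have ec' : ι c = φ (ι 64) := ec
  have hG := gens_rel
  simp only [Bool.and_eq_true, beq_iff_eq] at hG
  obtain ⟨⟨⟨⟨g1, g2⟩, g3⟩, g4⟩, g5⟩ := hG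
  have hsq : ∀ {x y : ℕ}, x < 128 → y < 128 → ι y = φ (ι x) → M x x = 0 → M y y = 0 := by
    intro x y hx hy e h
    refine (C.eq_one_iff (M_bound hy hy)).1 ?_
    rw [C.mul _ hy _ hy, e, ← map_mul, ← C.mul _ hx _ hx, h, C.one, map_one]
  have hM : ∀ {x y x' y' : ℕ}, x < 128 → y < 128 → x' < 128 → y' < 128 → ι x' = φ (ι x) → ι y' = φ (ι y) →
      M x' y' < 128 ∧ M x y < 128 ∧ ι (M x' y') = φ (ι (M x y)) := by
    intro x y x' y' hx hy hx' hy' e e'
    exact ⟨M_bound hx' hy', M_bound hx hy, by rw [C.mul _ hx' _ hy', C.mul _ hx _ hy, map_mul, e, e']⟩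
  have hcm : ∀ {x y x' y' : ℕ}, x < 128 → y < 128 → x' < 128 → y' < 128 → ι x' = φ (ι x) → ι y' = φ (ι y) →
      cmB x y = true → cmB x' y' = true := by
    intro x y x' y' hx hy hx' hy' e e' h
    rw [C.commute_iff hx' hy', e, e']
    exact ((C.commute_iff hx hy).1 h).map φ
  have r1 : rel1 a b = true := by
    obtain ⟨b1, b2, e1⟩ := hM (by norm_num) (by norm_num) ha hb ea' eb'
    obtain ⟨b3, b4, e2⟩ := hM b2 b2 b1 b1 e1 e1
    obtain ⟨b5, b6, e3⟩ := hM b4 b4 b3 b3 e2 e2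
    rw [rel1, fourth, beq_iff_eq] at g1 ⊢
    rw [g1, C.one, map_one] at e3
    exact (C.eq_one_iff b5).1 e3
  have r2 : rel2 a b c = true := by
    simp only [rel2, Bool.and_eq_true] at g2 ⊢
    obtain ⟨b1, b2, e1⟩ := hM (by norm_num) (by norm_num) hc ha ec' ea'
    obtain ⟨b3, b4, e2⟩ := hM b2 (by norm_num) b1 hc e1 ec'
    obtain ⟨b5, b6, e3⟩ := hM (by norm_num) (by norm_num) hc hb ec' eb'
    obtain ⟨b7, b8, e4⟩ := hM b6 (by norm_num) b5 hc e3 ec'
    exact ⟨⟨hcm (by norm_num) b4 ha b3 ea' e2 g2.1.1, hcm (by norm_num) b8 ha b7 ea' e4 g2.1.2⟩,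
      hcm (by norm_num) b8 hb b7 eb' e4 g2.2⟩
  have ht : ∀ j < 3, [a, b, c].getD j 0 < 128 ∧ g * ι (G j) * g⁻¹ = ι ([a, b, c].getD j 0) := by
    intro j hj
    rcases j with _ | _ | _ | j
    · exact ⟨ha, ea.symm⟩
    · exact ⟨hb, eb.symm⟩
    · exact ⟨hc, ec.symm⟩
    · omega
  have hz : ev [a, b, c] 15 ≠ 0 := by
    intro h
    have := (C.ev_spec ht (show 15 < 128 by norm_num)).2
    rw [h, C.one, mul_inv_eq_one, mul_eq_left] at this
    exact absurd ((C.eq_one_iff (by norm_num)).1 this) (by norm_num)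
  have ha0 : a ≠ 0 := fun h => by
    rw [h, C.one] at ea'
    exact absurd ((C.eq_one_iff (show (1 : ℕ) < 128 by norm_num)).1 ((MulAut.conj g).injective (ea'.symm.trans (map_one φ).symm)))
      (by norm_num)
  -- first adjust the image of the first generator
  have h1 := allB_spec reps_spec ha
  simp only [Bool.or_eq_true, Bool.not_eq_true', beq_eq_false_iff_ne, beq_iff_eq, List.any_eq_true,
    List.mem_range] at h1
  obtain ⟨u, hu, hua⟩ := (h1.resolve_left (fun h => h.elim (fun h => h (hsq (by norm_num) ha ea' g3)) ha0))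
  have hua' : cj u a ∈ reps := List.contains_iff_mem.1 hua
  let ψ : S →* S := (MulAut.conj (ι u)).toMonoidHom
  have hψ : ∀ {x : ℕ}, x < 128 → ι (cj u x) = ψ (ι x) := fun hx => C.cj_eq hu hx
  have a1 := C.cj_bound hu ha
  have b1 := C.cj_bound hu hb
  have c1 := C.cj_bound hu hc
  have h2 := allB_spec ((List.all_eq_true.1 class_spec) _ hua') b1
  simp only [Bool.or_eq_true, Bool.not_eq_true', Bool.and_eq_false_iff, beq_eq_false_iff_ne] at h2
  have sb : M (cj u b) (cj u b) = 0 := by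
    refine (C.eq_one_iff (M_bound b1 b1)).1 ?_
    rw [C.mul _ b1 _ b1, hψ hb, ← map_mul, ← C.mul _ hb _ hb, hsq (by norm_num) hb eb' g4, C.one, map_one]
  have sc : M (cj u c) (cj u c) = 0 := by
    refine (C.eq_one_iff (M_bound c1 c1)).1 ?_
    rw [C.mul _ c1 _ c1, hψ hc, ← map_mul, ← C.mul _ hc _ hc, hsq (by norm_num) hc ec' g5, C.one, map_one]
  have hM' : ∀ {x y x' y' : ℕ}, x < 128 → y < 128 → x' < 128 → y' < 128 → ι x' = ψ (ι x) → ι y' = ψ (ι y) →
      M x' y' < 128 ∧ M x y < 128 ∧ ι (M x' y') = ψ (ι (M x y)) := by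
    intro x y x' y' hx hy hx' hy' e e'
    exact ⟨M_bound hx' hy', M_bound hx hy, by rw [C.mul _ hx' _ hy', C.mul _ hx _ hy, map_mul, e, e']⟩
  have hcm' : ∀ {x y x' y' : ℕ}, x < 128 → y < 128 → x' < 128 → y' < 128 → ι x' = ψ (ι x) → ι y' = ψ (ι y) →
      cmB x y = true → cmB x' y' = true := by
    intro x y x' y' hx hy hx' hy' e e' h
    rw [C.commute_iff hx' hy', e, e']
    exact ((C.commute_iff hx hy).1 h).map ψ
  have q1 : rel1 (cj u a) (cj u b) = true := by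
    obtain ⟨p1, p2, e1⟩ := hM' ha hb a1 b1 (hψ ha) (hψ hb)
    obtain ⟨p3, p4, e2⟩ := hM' p2 p2 p1 p1 e1 e1
    obtain ⟨p5, p6, e3⟩ := hM' p4 p4 p3 p3 e2 e2
    rw [rel1, fourth, beq_iff_eq] at r1 ⊢
    rw [r1, C.one, map_one] at e3
    exact (C.eq_one_iff p5).1 e3
  have q2 : rel2 (cj u a) (cj u b) (cj u c) = true := by
    simp only [rel2, Bool.and_eq_true] at r2 ⊢
    obtain ⟨p1, p2, e1⟩ := hM' hc ha c1 a1 (hψ hc) (hψ ha)
    obtain ⟨p3, p4, e2⟩ := hM' p2 hc p1 c1 e1 (hψ hc)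
    obtain ⟨p5, p6, e3⟩ := hM' hc hb c1 b1 (hψ hc) (hψ hb)
    obtain ⟨p7, p8, e4⟩ := hM' p6 hc p5 c1 e3 (hψ hc)
    exact ⟨⟨hcm' ha p4 a1 p3 (hψ ha) e2 r2.1.1, hcm' ha p8 a1 p7 (hψ ha) e4 r2.1.2⟩,
      hcm' hb p8 b1 p7 (hψ hb) e4 r2.2⟩
  have ht' : ∀ j < 3, [cj u a, cj u b, cj u c].getD j 0 < 128 ∧
      (ι u * g) * ι (G j) * (ι u * g)⁻¹ = ι ([cj u a, cj u b, cj u c].getD j 0) := by
    have key : ∀ y, y < 128 → ∀ w, g * w * g⁻¹ = ι y → (ι u * g) * w * (ι u * g)⁻¹ = ι (cj u y) := by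
      intro y hy w e
      rw [C.cj_eq hu hy, ← e]; group
    intro j hj
    rcases j with _ | _ | _ | j
    · exact ⟨a1, key a ha _ ea.symm⟩
    · exact ⟨b1, key b hb _ eb.symm⟩
    · exact ⟨c1, key c hc _ ec.symm⟩
    · omega
  have hz' : ev [cj u a, cj u b, cj u c] 15 ≠ 0 := by
    intro h
    have := (C.ev_spec ht' (show 15 < 128 by norm_num)).2
    rw [h, C.one, mul_inv_eq_one, mul_eq_left] at this
    exact absurd ((C.eq_one_iff (by norm_num)).1 this) (by norm_num)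
  have h3 := allB_spec (h2.resolve_left (fun h => h.elim (fun h => h sb) (fun h => by rw [q1] at h; exact Bool.noConfusion h))) c1
  simp only [Bool.or_eq_true, Bool.not_eq_true', Bool.and_eq_false_iff, beq_eq_false_iff_ne,
    beq_iff_eq, List.any_eq_true, List.mem_range, Bool.and_eq_true] at h3
  obtain ⟨v, hv, hva, l, hl, hle⟩ := h3.resolve_left (fun h => h.elim
    (fun h => h.elim (fun h => h sc) (fun h => by rw [q2] at h; exact Bool.noConfusion h))
    (fun h => by simp [hz'] at h))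
  obtain ⟨k, hk, rfl⟩ := List.mem_iff_getElem.1 hl
  have hk8 : k < 8 := by simpa [L] using hk
  have hkD : L.getD k [] = [cj v (cj u a), cj v (cj u b), cj v (cj u c)] :=
    (List.getD_eq_getElem _ _ hk).trans hle.symm
  refine ⟨M v u, M_bound hv hu, k, hk8, C.acts_of_gens hk8 fun j hj => ?_⟩
  have hg' : al k (G j) = (L.getD k []).getD j 0 := by
    have : allB 8 (fun k => allB 3 fun j => al k (G j) == (L.getD k []).getD j 0) = true := by decide +kernel
    exact eq_of_beq (allB_spec (allB_spec this hk8) hj)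
  rw [hg', hkD]
  have key : ∀ y, y < 128 → ∀ w, (ι u * g) * w * (ι u * g)⁻¹ = ι y →
      (ι (M v u) * g) * w * (ι (M v u) * g)⁻¹ = ι (cj v y) := by
    intro y hy w e
    rw [C.cj_eq hv hy, ← e, C.mul _ hv _ hu]; group
  rcases j with _ | _ | _ | j
  · exact key _ a1 _ (ht' 0 hj).2
  · exact key _ b1 _ (ht' 1 hj).2
  · exact key _ c1 _ (ht' 2 hj).2
  · omega

end Coded

end Cfsg.Agent.TwoGroups.WreathEight
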