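import Cfsg.Agent.TwoGroups.WreathEight.Coded

/-! The extensions of the coded group by an element whose square lies in it. -/

set_option autoImplicit false
set_option linter.unusedSectionVars false

namespace Cfsg.Agent.TwoGroups.WreathEight

variable {S : Type*} [Group S] {P : Subgroup S} {ι : ℕ → S}

/-- The element coded by a pair. -/
def J (ι : ℕ → S) (g : S) (i : ℕ) : S := ι (i % 128) * g ^ (i / 128)

namespace Coded

variable (C : Coded P ι) {g : S} {k h : ℕ} (hk : k < 8) (hA : Acts ι g k) (hh : h < 128) (hsq : ι h = g * g)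
include C hk hA hh hsq

theorem J_mul {i j : ℕ} (hi : i < 256) (hj : j < 256) :
    T k h i j < 256 ∧ J ι g (T k h i j) = J ι g i * J ι g j := by
  unfold T
  by_cases h1 : i < 128
  · rw [if_pos h1]
    have hb := M_bound h1 (Nat.mod_lt j (by norm_num : 128 > 0))
    refine ⟨by omega, ?_⟩
    simp only [J]
    rw [show (128 * (j / 128) + M i (j % 128)) % 128 = M i (j % 128) by omega,
      show (128 * (j / 128) + M i (j % 128)) / 128 = j / 128 by omega, Nat.mod_eq_of_lt h1,
      Nat.div_eq_of_lt h1, pow_zero, mul_one, C.mul _ h1 _ (Nat.mod_lt j (by norm_num)), mul_assoc]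
  · rw [if_neg h1]
    have ha : i % 128 < 128 := Nat.mod_lt i (by norm_num)
    have hi1 : i / 128 = 1 := by omega
    by_cases h2 : j < 128
    · rw [if_pos h2]
      have hb := M_bound ha (al_bound hk h2).1
      refine ⟨by omega, ?_⟩
      simp only [J]
      rw [show (128 + M (i % 128) (al k j)) % 128 = M (i % 128) (al k j) by omega,
        show (128 + M (i % 128) (al k j)) / 128 = 1 by omega, hi1, Nat.mod_eq_of_lt h2,
        Nat.div_eq_of_lt h2, pow_zero, pow_one, C.mul _ ha _ (al_bound hk h2).1, ← hA j h2]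
      group
    · rw [if_neg h2]
      have hj' : j % 128 < 128 := Nat.mod_lt j (by norm_num)
      have hb1 := M_bound ha (al_bound hk hj').1
      have hb := M_bound hb1 hh
      refine ⟨by omega, ?_⟩
      simp only [J]
      rw [Nat.mod_eq_of_lt hb, Nat.div_eq_of_lt hb, pow_zero, mul_one, show j / 128 = 1 by omega, hi1,
        C.mul _ hb1 _ hh, C.mul _ ha _ (al_bound hk hj').1, ← hA _ hj', hsq]
      group

omit hk hA hh hsq in
theorem J_inj (hg : g ∉ P) {i j : ℕ} (hi : i < 256) (hj : j < 256) (e : J ι g i = J ι g j) : i = j := by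
  have ha : i % 128 < 128 := Nat.mod_lt i (by norm_num)
  have hb : j % 128 < 128 := Nat.mod_lt j (by norm_num)
  simp only [J] at e
  rcases (by omega : i / 128 = 0 ∨ i / 128 = 1) with h1 | h1 <;>
    rcases (by omega : j / 128 = 0 ∨ j / 128 = 1) with h2 | h2 <;> rw [h1, h2] at e
  · have := C.inj _ ha _ hb (by simpa using e); omega
  · refine absurd ?_ hg
    rw [pow_zero, mul_one, pow_one] at e
    rw [show g = (ι (j % 128))⁻¹ * ι (i % 128) by rw [e]; group]
    exact P.mul_mem (P.inv_mem (C.ι_mem hb)) (C.ι_mem ha)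
  · refine absurd ?_ hg
    rw [pow_zero, mul_one, pow_one] at e
    rw [show g = (ι (i % 128))⁻¹ * ι (j % 128) by rw [← e]; group]
    exact P.mul_mem (P.inv_mem (C.ι_mem ha)) (C.ι_mem hb)
  · have := C.inj _ ha _ hb (by simpa using e); omega

theorem maskGroup [Finite S] (hg : g ∉ P) {m : ℕ} (h0 : inMask m 0 = true)
    (hcl : ∀ a ∈ maskList m, ∀ b ∈ maskList m, inMask m (T k h a b) = true) :
    ∃ H : Subgroup S, (∀ s, s ∈ H ↔ ∃ i ∈ maskList m, J ι g i = s) ∧ Nat.card H = (maskList m).length := by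
  have hmem : ∀ {i : ℕ}, i ∈ maskList m → i < 256 := fun hi => List.mem_range.1 (List.mem_filter.1 hi).1
  let K : Submonoid S :=
    { carrier := {s | ∃ i ∈ maskList m, J ι g i = s}
      one_mem' := ⟨0, List.mem_filter.2 ⟨List.mem_range.2 (by norm_num), h0⟩, by simp [J, C.one]⟩
      mul_mem' := by
        rintro _ _ ⟨a, ha, rfl⟩ ⟨b, hb, rfl⟩
        have := C.J_mul hk hA hh hsq (hmem ha) (hmem hb)
        exact ⟨_, List.mem_filter.2 ⟨List.mem_range.2 this.1, hcl a ha b hb⟩, this.2⟩ }
  let H : Subgroup S :=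
    { K with
      inv_mem' := fun {s} hs => by
        have : s⁻¹ = s ^ (orderOf s - 1) := by
          refine inv_eq_of_mul_eq_one_right ?_
          rw [← pow_succ', Nat.sub_add_cancel (orderOf_pos s), pow_orderOf_eq_one]
        rw [this]
        exact (pow_mem (show s ∈ K from hs) _ : _) }
  refine ⟨H, fun s => Iff.rfl, ?_⟩
  classical
  have e : (H : Set S) = ↑((maskList m).toFinset.image (J ι g)) := by
    ext s
    rw [Finset.coe_image]
    simp only [Set.mem_image, Finset.mem_coe, List.mem_toFinset]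
    exact Iff.rfl
  rw [show Nat.card H = (H : Set S).ncard from Nat.card_coe_set_eq _, e, Set.ncard_coe_finset,
    Finset.card_image_of_injOn, List.toFinset_card_of_nodup (show (maskList m).Nodup from List.Nodup.filter _ List.nodup_range)]
  intro a ha b hb
  simp only [Finset.mem_coe, List.mem_toFinset] at ha hb
  exact C.J_inj hg (hmem ha) (hmem hb)

theorem not_witness [Finite S] (hg : g ∉ P) (hr : Cfsg.SectionalPRankLE 2 4 S) : witOk k h ≠ true := by
  intro hw
  simp only [witOk, Bool.and_eq_true, List.all_eq_true, decide_eq_true_eq, List.any_eq_true, beq_iff_eq] at hw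
  obtain ⟨⟨⟨⟨⟨⟨⟨⟨h0H, h0K⟩, hKH⟩, hclH⟩, hclK⟩, hsqr⟩, hnorm⟩, hlen⟩, hpos⟩ := hw
  obtain ⟨H, hH, hHc⟩ := C.maskGroup hk hA hh hsq hg h0H hclH
  obtain ⟨K, hK, hKc⟩ := C.maskGroup hk hA hh hsq hg h0K hclK
  have hmem : ∀ {m i : ℕ}, i ∈ maskList m → i < 256 := fun hi => List.mem_range.1 (List.mem_filter.1 hi).1
  have hle : K ≤ H := by
    intro s hs
    obtain ⟨i, hi, rfl⟩ := (hK s).1 hs
    exact (hH _).2 ⟨i, List.mem_filter.2 ⟨List.mem_range.2 (hmem hi), hKH i hi⟩, rfl⟩
  set N := K.subgroupOf H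
  haveI hN : N.Normal := by
    refine ⟨fun n hn a => ?_⟩
    obtain ⟨i, hi, ei⟩ := (hH _).1 a.2
    obtain ⟨b, hb, eb⟩ := (hK _).1 (Subgroup.mem_subgroupOf.1 hn)
    obtain ⟨c, hc, ec⟩ := hnorm i hi b hb
    have e := congrArg (J ι g) ec
    rw [(C.J_mul hk hA hh hsq (hmem hi) (hmem hb)).2, (C.J_mul hk hA hh hsq (hmem hc) (hmem hi)).2, ei, eb] at e
    rw [Subgroup.mem_subgroupOf, hK]
    exact ⟨c, hc, by simp [e]⟩
  have hsq' : ∀ q : H ⧸ N, q ^ 2 = 1 := by
    intro q
    obtain ⟨a, rfl⟩ := QuotientGroup.mk'_surjective N q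
    rw [← map_pow]
    refine (QuotientGroup.eq_one_iff _).2 ?_
    obtain ⟨i, hi, ei⟩ := (hH _).1 a.2
    have hj := C.J_mul hk hA hh hsq (hmem hi) (hmem hi)
    rw [Subgroup.mem_subgroupOf, hK]
    exact ⟨T k h i i, List.mem_filter.2 ⟨List.mem_range.2 hj.1, hsqr i hi⟩, by rw [hj.2, ei, Subgroup.coe_pow, sq]⟩
  have hcom : ∀ a b : H ⧸ N, a * b = b * a := by
    intro a b
    have inv : ∀ c : H ⧸ N, c⁻¹ = c := fun c => inv_eq_of_mul_eq_one_right (by rw [← sq]; exact hsq' c)
    rw [← inv (a * b), mul_inv_rev, inv, inv]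
  have hcard : Nat.card (H ⧸ N) = 32 := by
    have h1 := N.card_mul_index
    rw [Nat.card_congr (Subgroup.subgroupOfEquivOfLe hle).toEquiv, hHc, hKc, hlen, Subgroup.index, mul_comm 32] at h1
    exact Nat.eq_of_mul_eq_mul_left hpos h1
  have := hr H N (⊤ : Subgroup (H ⧸ N)) ⟨⟨fun a b => Subtype.ext (hcom a b)⟩⟩ (fun a _ => hsq' a)
  rw [Subgroup.card_top, hcard] at this
  norm_num at this

/-- Only two normal forms occur, with central square. -/
theorem survivor [Finite S] (hg : g ∉ P) (hr : Cfsg.SectionalPRankLE 2 4 S) :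
    (k = 4 ∨ k = 7) ∧ (h = 0 ∨ h = 15) := by
  have e1 : al k h = h := by
    refine C.inj _ (al_bound hk hh).1 _ hh ?_
    rw [← hA h hh, hsq]
    group
  have e2 : ∀ j < 3, M h (G j) = M (al k (al k (G j))) h := by
    intro j hj
    have b1 := (al_bound hk (G_bound hj)).1
    have b2 := (al_bound hk b1).1
    refine C.inj _ (M_bound hh (G_bound hj)) _ (M_bound b2 hh) ?_
    rw [C.mul _ hh _ (G_bound hj), C.mul _ b2 _ hh, ← hA _ b1, ← hA _ (G_bound hj), hsq]
    group
  have hs := allB_spec (allB_spec square_spec hk) hh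
  simp only [Bool.or_eq_true, Bool.and_eq_true, Bool.not_eq_true', Bool.and_eq_false_iff, beq_iff_eq,
    beq_eq_false_iff_ne] at hs
  rcases hs with hs | ⟨hz, hs⟩
  · exfalso
    rcases hs with hs | hs
    · exact hs e1
    · rw [show (allB 3 fun j => M h (G j) == M (al k (al k (G j))) h) = true from
        List.all_eq_true.2 fun j hj => beq_iff_eq.2 (e2 j (List.mem_range.1 hj))] at hs
      exact Bool.noConfusion hs
  · refine ⟨?_, hz⟩
    rcases hs with hs | hs
    · exact hs
    · exact absurd hs (C.not_witness hk hA hh hsq hg hr)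

end Coded

end Cfsg.Agent.TwoGroups.WreathEight
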