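import Cfsg.Agent.TwoGroups.WreathEight.Extension

/-! Subgroups of type `D8 wr 2` in 2-groups of sectional rank at most 4. -/

set_option autoImplicit false
set_option linter.unusedSectionVars false

namespace Cfsg.Agent.TwoGroups.WreathEight

variable {S : Type*} [Group S] [Finite S] {P : Subgroup S} {ι : ℕ → S}

theorem exists_pow_out (h2 : IsPGroup 2 S) {g : S} (hg : g ∉ P) : ∃ n : ℕ, g ^ n ∉ P ∧ g ^ n * g ^ n ∈ P := by
  classical
  obtain ⟨m, hm⟩ := h2 g
  have hex : ∃ m, g ^ 2 ^ m ∈ P := ⟨m, by rw [hm]; exact P.one_mem⟩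
  obtain ⟨n, hn⟩ : ∃ n, Nat.find hex = n + 1 := by
    refine ⟨Nat.find hex - 1, (Nat.succ_pred_eq_of_pos (Nat.pos_of_ne_zero fun h => hg ?_)).symm⟩
    have := Nat.find_spec hex
    rwa [h, pow_zero, pow_one] at this
  refine ⟨2 ^ n, Nat.find_min hex (by omega), ?_⟩
  have := Nat.find_spec hex
  rw [hn, pow_succ, mul_comm, pow_mul] at this
  rwa [← sq, ← pow_mul, mul_comm, pow_mul]

namespace Coded

variable (C : Coded P ι) (h2 : IsPGroup 2 S) (hr : Cfsg.SectionalPRankLE 2 4 S)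
include C h2 hr

omit h2 in
theorem class_of {g : S} (hN : g ∈ Subgroup.normalizer (P : Set S)) (hg : g ∉ P) (hgg : g * g ∈ P) :
    ∃ u < 128, ∃ k, (k = 4 ∨ k = 7) ∧ Acts ι (ι u * g) k ∧ ι u * g ∉ P ∧
      ∃ h, (h = 0 ∨ h = 15) ∧ ι h = (ι u * g) * (ι u * g) := by
  obtain ⟨u, hu, k, hk, hA⟩ := C.normal_form hN
  have hout : ι u * g ∉ P := fun h => hg ((Subgroup.mul_mem_cancel_left P (C.ι_mem hu)).1 h)
  have hin : (ι u * g) * (ι u * g) ∈ P := by
    rw [show (ι u * g) * (ι u * g) = ι u * (g * ι u * g⁻¹) * (g * g) by group]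
    exact P.mul_mem (P.mul_mem (C.ι_mem hu) ((Subgroup.mem_normalizer_iff.1 hN _).1 (C.ι_mem hu))) hgg
  obtain ⟨h, hh, hsq⟩ := (C.mem _).1 hin
  obtain ⟨a, b⟩ := C.survivor hk hA hh hsq hout hr
  exact ⟨u, hu, k, a, hA, hout, h, b, hsq⟩

theorem acts_zero {g : S} (h : ∀ x < 128, g * ι x = ι x * g) : Acts ι g 0 := by
  refine C.acts_of_gens (by norm_num) fun j hj => ?_
  have e : al 0 (G j) = G j := by
    have : allB 3 (fun j => al 0 (G j) == G j) = true := by decide +kernel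
    exact eq_of_beq (allB_spec this hj)
  rw [e, h _ (G_bound hj), mul_inv_cancel_right]

theorem centralizer_le : Subgroup.centralizer (P : Set S) ≤ P := by
  intro c hc
  by_contra hcP
  obtain ⟨n, hn, hnn⟩ := exists_pow_out h2 hcP
  obtain ⟨h, hh, hsq⟩ := (C.mem _).1 hnn
  have hA : Acts ι (c ^ n) 0 := C.acts_zero h2 hr fun x hx =>
    ((Subgroup.mem_centralizer_iff.1 (Subgroup.pow_mem _ hc n)) _ (C.ι_mem hx)).symm
  obtain ⟨h1 | h1, -⟩ := C.survivor (by norm_num) hA hh hsq hn hr <;> norm_num at h1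

/-- An element inducing the same as an element of `P` lies in `P`. -/
theorem mem_of_inner {w : S} {u : ℕ} (hu : u < 128)
    (h : ∀ j < 3, w * ι (G j) * w⁻¹ = ι u * ι (G j) * (ι u)⁻¹) : w ∈ P := by
  have hc : (ι u)⁻¹ * w ∈ Subgroup.centralizer (P : Set S) := by
    have key : ∀ j < 3, (ι u)⁻¹ * w * ι (G j) * ((ι u)⁻¹ * w)⁻¹ = ι (al 0 (G j)) := by
      intro j hj
      have e : al 0 (G j) = G j := by
        have : allB 3 (fun j => al 0 (G j) == G j) = true := by decide +kernel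
        exact eq_of_beq (allB_spec this hj)
      rw [e, show (ι u)⁻¹ * w * ι (G j) * ((ι u)⁻¹ * w)⁻¹ = (ι u)⁻¹ * (w * ι (G j) * w⁻¹) * ι u by group, h j hj]
      group
    have hA := C.acts_of_gens (by norm_num) key
    rw [Subgroup.mem_centralizer_iff]
    intro p hp
    obtain ⟨x, hx, rfl⟩ := (C.mem p).1 hp
    have e : al 0 x = x := by
      have : allB 128 (fun x => al 0 x == x) = true := by decide +kernel
      exact eq_of_beq (allB_spec this hx)
    have := hA x hx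
    rw [e, mul_inv_eq_iff_eq_mul] at this
    exact this.symm
  exact (Subgroup.mul_mem_cancel_left P (P.inv_mem (C.ι_mem hu))).1 (C.centralizer_le h2 hr hc)

theorem Acts_comp {g g' : S} {k k' : ℕ} (hk : k < 8) (hk' : k' < 8) (hA : Acts ι g k) (hA' : Acts ι g' k') {j : ℕ}
    (hj : j < 3) : g * g' * ι (G j) * (g * g')⁻¹ = ι (al k (al k' (G j))) := by
  rw [show g * g' * ι (G j) * (g * g')⁻¹ = g * (g' * ι (G j) * g'⁻¹) * g⁻¹ by group, hA' _ (G_bound hj),
    hA _ (al_bound hk' (G_bound hj)).1]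

theorem four_seven {k k' : ℕ} (e : (k = 4 ∧ k' = 7) ∨ (k = 7 ∧ k' = 4)) {u i : ℕ} (hu : u < 128)
    (hi : i = 0 ∨ i = 4 ∨ i = 7) (h : ∀ j < 3, cj u (al i (G j)) = al k (al k' (G j))) : False := by
  have := allB_spec ((List.all_eq_true.1 comp_spec) (k, k') (by rcases e with ⟨rfl, rfl⟩ | ⟨rfl, rfl⟩ <;> simp)) hu
  have h' := List.all_eq_true.1 this i (by rcases hi with rfl | rfl | rfl <;> simp)
  rw [show (allB 3 fun j => cj u (al i (G j)) == al k (al k' (G j))) = true from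
    List.all_eq_true.2 fun j hj => beq_iff_eq.2 (h j (List.mem_range.1 hj))] at h'
  exact Bool.noConfusion h'

/-- Two outer elements of order two modulo `P` which commute modulo `P` agree modulo `P`. -/
theorem unique {g g' : S} (hN : g ∈ Subgroup.normalizer (P : Set S)) (hN' : g' ∈ Subgroup.normalizer (P : Set S))
    (hg : g ∉ P) (hg' : g' ∉ P) (hgg : g * g ∈ P) (hgg' : g' * g' ∈ P) (hprod : g * g' * (g * g') ∈ P) :
    g * g' ∈ P := by
  by_contra hout
  have hNP : ∀ x < 128, ι x ∈ Subgroup.normalizer (P : Set S) := fun x hx =>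
    Subgroup.le_normalizer (C.ι_mem hx)
  obtain ⟨u, hu, k, hk, hA, -, -⟩ := C.class_of hr hN hg hgg
  obtain ⟨u', hu', k', hk', hA', -, -⟩ := C.class_of hr hN' hg' hgg'
  have hk8 : k < 8 := by omega
  have hk8' : k' < 8 := by omega
  set p := (ι u * g) * (ι u' * g')
  have hpg : p * (g * g')⁻¹ ∈ P := by
    rw [show p * (g * g')⁻¹ = ι u * (g * ι u' * g⁻¹) by simp only [p]; group]
    exact P.mul_mem (C.ι_mem hu) ((Subgroup.mem_normalizer_iff.1 hN _).1 (C.ι_mem hu'))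
  have hpout : p ∉ P := fun h => hout (by simpa [mul_assoc] using P.mul_mem (P.inv_mem hpg) h)
  have hpN : p ∈ Subgroup.normalizer (P : Set S) :=
    mul_mem (mul_mem (hNP u hu) hN) (mul_mem (hNP u' hu') hN')
  by_cases hkk : k = k'
  · subst hkk
    have hsame : (ι u * g)⁻¹ * (ι u' * g') ∈ P := by
      refine C.mem_of_inner h2 hr (u := 0) (by norm_num) fun j hj => ?_
      rw [show (ι u * g)⁻¹ * (ι u' * g') * ι (G j) * ((ι u * g)⁻¹ * (ι u' * g'))⁻¹ =
        (ι u * g)⁻¹ * ((ι u' * g') * ι (G j) * (ι u' * g')⁻¹) * (ι u * g) by group, hA' _ (G_bound hj),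
        ← hA _ (G_bound hj), C.one]
      group
    obtain ⟨u1, hu1, h, hh⟩ : ∃ u1, u1 < 128 ∧ ∃ h, ι u1 = h ∧ h = (ι u * g)⁻¹ * (ι u' * g') := by
      obtain ⟨x, hx, e⟩ := (C.mem _).1 hsame
      exact ⟨x, hx, _, e, rfl⟩
    apply hpout
    rw [show p = (ι u * g) * (ι u * g) * ((ι u * g)⁻¹ * (ι u' * g')) by simp only [p]; group]
    refine P.mul_mem ?_ hsame
    rw [show (ι u * g) * (ι u * g) = ι u * (g * ι u * g⁻¹) * (g * g) by group]
    exact P.mul_mem (P.mul_mem (C.ι_mem hu) ((Subgroup.mem_normalizer_iff.1 hN _).1 (C.ι_mem hu))) hgg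
  · have hcomp : ∀ j < 3, p * ι (G j) * p⁻¹ = ι (al k (al k' (G j))) := fun j hj =>
      C.Acts_comp h2 hr hk8 hk8' hA hA' hj
    have hpp : p * p ∈ P := by
      obtain ⟨q, hqP, hq⟩ : ∃ q ∈ P, p = q * (g * g') := ⟨_, hpg, by group⟩
      rw [hq, show q * (g * g') * (q * (g * g')) = q * ((g * g') * q * (g * g')⁻¹) * (g * g' * (g * g')) by group]
      exact P.mul_mem (P.mul_mem hqP ((Subgroup.mem_normalizer_iff.1 (mul_mem hN hN') _).1 hqP)) hprod
    obtain ⟨v, hv, i, hi, hAv, -, -⟩ := C.class_of hr hpN hpout hpp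
    have hi8 : i < 8 := by omega
    refine C.four_seven h2 hr (k := k) (k' := k') (by omega) (u := I v) (i := i) (I_bound hv).1 (by omega)
      fun j hj => ?_
    have b := (al_bound hk8 (al_bound hk8' (G_bound hj)).1).1
    refine C.inj _ (C.cj_bound (I_bound hv).1 (al_bound hi8 (G_bound hj)).1) _ b ?_
    rw [C.cj_eq (I_bound hv).1 (al_bound hi8 (G_bound hj)).1, ← hAv _ (G_bound hj), ← hcomp j hj, C.inv hv]
    group

/-- No outer element has its square outer of order two modulo `P`. -/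
theorem no_four {g : S} (hN : g ∈ Subgroup.normalizer (P : Set S)) (hg : g * g ∉ P)
    (h4 : g * g * (g * g) ∈ P) : False := by
  obtain ⟨u, hu, k, hk8, hA⟩ := C.normal_form hN
  set p := ι u * g
  have hpN : p ∈ Subgroup.normalizer (P : Set S) := mul_mem (Subgroup.le_normalizer (C.ι_mem hu)) hN
  have hq : p * p * (g * g)⁻¹ ∈ P := by
    rw [show p * p * (g * g)⁻¹ = ι u * (g * ι u * g⁻¹) by simp only [p]; group]
    exact P.mul_mem (C.ι_mem hu) ((Subgroup.mem_normalizer_iff.1 hN _).1 (C.ι_mem hu))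
  have hout : p * p ∉ P := fun h => hg (by simpa [mul_assoc] using P.mul_mem (P.inv_mem hq) h)
  have h4' : p * p * (p * p) ∈ P := by
    obtain ⟨q, hqP, e⟩ : ∃ q ∈ P, p * p = q * (g * g) := ⟨_, hq, by group⟩
    rw [e, show q * (g * g) * (q * (g * g)) = q * ((g * g) * q * (g * g)⁻¹) * (g * g * (g * g)) by
      generalize g * g = r; group]
    exact P.mul_mem (P.mul_mem hqP ((Subgroup.mem_normalizer_iff.1 (mul_mem hN hN) _).1 hqP)) h4
  obtain ⟨v, hv, i, hi, hAv, -, -⟩ := C.class_of hr (mul_mem hpN hpN) hout h4'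
  have hi8 : i < 8 := by omega
  have h' := List.all_eq_true.1 (allB_spec (allB_spec sq_comp_spec hk8) (I_bound hv).1) i
    (by rcases hi with rfl | rfl <;> simp)
  rw [show (allB 3 fun j => cj (I v) (al i (G j)) == al k (al k (G j))) = true from
    List.all_eq_true.2 fun j hj => ?_] at h'
  · exact Bool.noConfusion h'
  have hj := List.mem_range.1 hj
  refine beq_iff_eq.2 (C.inj _ (C.cj_bound (I_bound hv).1 (al_bound hi8 (G_bound hj)).1) _
    (al_bound hk8 (al_bound hk8 (G_bound hj)).1).1 ?_)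
  rw [C.cj_eq (I_bound hv).1 (al_bound hi8 (G_bound hj)).1, ← hAv _ (G_bound hj),
    ← C.Acts_comp h2 hr hk8 hk8 hA hA hj, C.inv hv]
  group

/-- The distinguished outer element. -/
theorem outer (hP : P ≠ ⊤) :
    ∃ g k, g ∈ Subgroup.normalizer (P : Set S) ∧ (k = 4 ∨ k = 7) ∧ Acts ι g k ∧ g ∉ P ∧
      (∃ h, (h = 0 ∨ h = 15) ∧ ι h = g * g) ∧
      ∀ x ∈ Subgroup.normalizer (P : Set S), x ∈ P ∨ g⁻¹ * x ∈ P := by
  haveI : Fact (Nat.Prime 2) := ⟨Nat.prime_two⟩
  haveI : Group.IsNilpotent S := h2.isNilpotent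
  set N := Subgroup.normalizer (P : Set S)
  have hlt : P < N := normalizerCondition_of_isNilpotent P (lt_top_iff_ne_top.2 hP)
  haveI : (P.subgroupOf N).Normal := Subgroup.normal_in_normalizer
  set Q := ↥N ⧸ P.subgroupOf N
  haveI : Nontrivial Q := (QuotientGroup.nontrivial_iff).2 fun h =>
    not_le_of_gt hlt (Subgroup.subgroupOf_eq_top.1 h)
  have hQ : IsPGroup 2 Q := (h2.to_subgroup N).to_quotient _
  haveI := hQ.center_nontrivial
  obtain ⟨z, hz⟩ := exists_prime_orderOf_dvd_card' (G := Subgroup.center Q) 2 (by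
    obtain ⟨n, hn, hn'⟩ := (hQ.to_subgroup (Subgroup.center Q)).nontrivial_iff_card.1 inferInstance
    rw [hn']; exact dvd_pow_self 2 (by omega))
  obtain ⟨g0, hg0⟩ := QuotientGroup.mk'_surjective (P.subgroupOf N) (z : Q)
  have hmk : ∀ x : N, (QuotientGroup.mk' (P.subgroupOf N)) x = 1 ↔ (x : S) ∈ P := fun x =>
    (QuotientGroup.eq_one_iff x).trans Subgroup.mem_subgroupOf
  have hz2 : (z : Q) * z = 1 := by
    have := pow_orderOf_eq_one z
    rw [hz, sq] at this
    exact congrArg Subtype.val this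
  have hz1 : (z : Q) ≠ 1 := fun h => by
    rw [show z = 1 from Subtype.ext h, orderOf_one] at hz
    norm_num at hz
  have hg0P : (g0 : S) ∉ P := fun h => hz1 (hg0 ▸ (hmk g0).2 h)
  have hg0g0 : (g0 : S) * g0 ∈ P := by
    rw [← Subgroup.coe_mul, ← hmk, map_mul, hg0, hz2]
  have huniq : ∀ q : Q, q * q = 1 → q = 1 ∨ q = (z : Q) := by
    intro q hq
    obtain ⟨x, rfl⟩ := QuotientGroup.mk'_surjective (P.subgroupOf N) q
    by_cases hx : (x : S) ∈ P
    · exact Or.inl ((hmk x).2 hx)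
    refine Or.inr ?_
    have := C.unique h2 hr (g := (x : S)) (g' := (g0 : S)) x.2 g0.2 hx hg0P
      (by rw [← Subgroup.coe_mul, ← hmk, map_mul, hq]) hg0g0 (by
        rw [← Subgroup.coe_mul, ← Subgroup.coe_mul, ← hmk, map_mul, map_mul, hg0,
          mul_assoc, ← mul_assoc (z : Q), ← Subgroup.mem_center_iff.1 z.2, mul_assoc, hz2, mul_one, hq])
    rw [← Subgroup.coe_mul, ← hmk, map_mul, hg0] at this
    rw [eq_comm, ← mul_left_inj (z : Q), hz2, ← this]
  have hall : ∀ q : Q, q * q = 1 := by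
    intro q
    by_contra hq
    obtain ⟨n, hn⟩ := hQ q
    have hex : ∃ n, q ^ 2 ^ n = 1 := ⟨n, hn⟩
    classical
    obtain ⟨m, hm⟩ : ∃ m, Nat.find hex = m + 2 := by
      refine ⟨Nat.find hex - 2, ?_⟩
      have hs := Nat.find_spec hex
      rcases hf : Nat.find hex with _ | _ | f
      · rw [hf, pow_zero, pow_one] at hs; exact absurd (by rw [hs, one_mul]) hq
      · rw [hf, pow_one, sq] at hs; exact absurd hs hq
      · omega
    have hs := Nat.find_spec hex
    rw [hm] at hs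
    have hlt1 := Nat.find_min hex (m := m + 1) (by omega)
    obtain ⟨x, hx⟩ := QuotientGroup.mk'_surjective (P.subgroupOf N) (q ^ 2 ^ m)
    refine C.no_four h2 hr x.2 ?_ ?_
    · rw [← Subgroup.coe_mul, ← hmk, map_mul, hx, ← pow_add]
      rwa [← two_mul, ← pow_succ']
    · rw [← Subgroup.coe_mul, ← Subgroup.coe_mul, ← hmk, map_mul, map_mul, hx, ← pow_add, ← pow_add]
      rwa [show 2 ^ m + 2 ^ m + (2 ^ m + 2 ^ m) = 2 ^ (m + 2) by ring]
  obtain ⟨u, hu, k, hk, hA, hout, hh⟩ := C.class_of hr g0.2 hg0P hg0g0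
  refine ⟨ι u * g0, k, mul_mem (Subgroup.le_normalizer (C.ι_mem hu)) g0.2, hk, hA, hout, hh, fun x hx => ?_⟩
  rcases huniq _ (hall (QuotientGroup.mk' (P.subgroupOf N) ⟨x, hx⟩)) with e | e
  · exact Or.inl ((hmk ⟨x, hx⟩).1 e)
  · refine Or.inr ?_
    have : ((g0⁻¹ * ⟨x, hx⟩ : N) : S) ∈ P := (hmk _).1 (by rw [map_mul, map_inv, hg0, e, inv_mul_cancel])
    rw [Subgroup.coe_mul, Subgroup.coe_inv] at this
    rw [show (ι u * (g0 : S))⁻¹ * x = ((g0 : S)⁻¹ * (ι u)⁻¹ * g0) * ((g0 : S)⁻¹ * x) by group]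
    exact P.mul_mem ((Subgroup.mem_normalizer_iff.1 g0.2 _).2 (by
      rw [show (g0 : S) * ((g0 : S)⁻¹ * (ι u)⁻¹ * g0) * (g0 : S)⁻¹ = (ι u)⁻¹ by group]
      exact P.inv_mem (C.ι_mem hu))) this

end Coded

end Cfsg.Agent.TwoGroups.WreathEight
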