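import Cfsg.Agent.TwoGroups.WreathEight.Checks

/-! The table group as a Sylow 2-subgroup of the symmetric group of degree 8. -/

set_option autoImplicit false

namespace Cfsg.Agent.TwoGroups.WreathEight

theorem M_bound {x y : ℕ} (hx : x < 128) (hy : y < 128) : M x y < 128 :=
  of_decide_eq_true (allB_spec (allB_spec M_lt hx) hy)

theorem act_bound {x i : ℕ} (hx : x < 128) (hi : i < 8) : act x i < 8 :=
  of_decide_eq_true (allB_spec (allB_spec act_lt hx) hi)

theorem act_hom {x y i : ℕ} (hx : x < 128) (hy : y < 128) (hi : i < 8) : act (M x y) i = act x (act y i) :=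
  eq_of_beq (allB_spec (allB_spec (allB_spec act_mul hx) hy) hi)

theorem act_one {i : ℕ} (hi : i < 8) : act 0 i = i := eq_of_beq (allB_spec act_zero hi)

theorem I_bound {x : ℕ} (hx : x < 128) : I x < 128 ∧ M x (I x) = 0 ∧ M (I x) x = 0 := by
  have := allB_spec I_spec hx
  simp only [Bool.and_eq_true, decide_eq_true_eq, beq_iff_eq] at this
  exact ⟨this.1.1, this.1.2, this.2⟩

/-- The permutation attached to a code. -/
def perm (x : Fin 128) : Equiv.Perm (Fin 8) where
  toFun i := ⟨act x i, act_bound x.2 i.2⟩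
  invFun i := ⟨act (I x) i, act_bound (I_bound x.2).1 i.2⟩
  left_inv i := Fin.ext (by
    show act (I x) (act x i) = i
    rw [← act_hom (I_bound x.2).1 x.2 i.2, (I_bound x.2).2.2, act_one i.2])
  right_inv i := Fin.ext (by
    show act x (act (I x) i) = i
    rw [← act_hom x.2 (I_bound x.2).1 i.2, (I_bound x.2).2.1, act_one i.2])

theorem perm_mul (x y : Fin 128) : perm ⟨M x y, M_bound x.2 y.2⟩ = perm x * perm y := by
  ext i
  exact act_hom x.2 y.2 i.2

theorem perm_zero : perm 0 = 1 := by
  ext i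
  exact act_one i.2

theorem perm_injective : Function.Injective perm := by
  intro x y h
  have h1 : perm ⟨M (I y) x, M_bound (I_bound y.2).1 x.2⟩ = 1 := by
    have e := perm_mul ⟨I y, (I_bound y.2).1⟩ x
    have e' := perm_mul ⟨I y, (I_bound y.2).1⟩ y
    rw [e, h, ← e', ← perm_zero]
    congr 1
    exact Fin.ext (I_bound y.2).2.2
  have h2 : M (I y) x = 0 := by
    have := allB_spec faithful (M_bound (I_bound y.2).1 x.2)
    rw [Bool.or_eq_true, beq_iff_eq, Bool.not_eq_true'] at this
    refine this.resolve_right fun hf => ?_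
    have hall : (allB 8 fun i => act (M (I y) x) i == i) = true := List.all_eq_true.2 fun i hi => by
      rw [List.mem_range] at hi
      have := congrArg (fun σ : Equiv.Perm (Fin 8) => ((σ ⟨i, hi⟩ : Fin 8) : ℕ)) h1
      simpa [perm] using this
    rw [hf] at hall
    exact Bool.false_ne_true hall
  apply Fin.ext
  have e1 : M y (M (I y) x) = y := by rw [h2]; exact (allB_spec right_unit y.2 |> eq_of_beq)
  have e2 : M y (M (I y) x) = x := eq_of_beq (allB_spec (allB_spec left_cancel y.2) x.2)
  exact e2.symm.trans e1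
where
  right_unit : allB 128 (fun y => M y 0 == y) = true := by decide +kernel
  left_cancel : allB 128 (fun y => allB 128 fun x => M y (M (I y) x) == x) = true := by decide +kernel

/-- The image of the table group. -/
def image : Subgroup (Equiv.Perm (Fin 8)) where
  carrier := Set.range perm
  one_mem' := ⟨0, perm_zero⟩
  mul_mem' := fun ⟨x, hx⟩ ⟨y, hy⟩ => ⟨_, (perm_mul x y).trans (by rw [hx, hy])⟩
  inv_mem' := fun {a} ⟨x, hx⟩ => ⟨⟨I x, (I_bound x.2).1⟩, by
    rw [← hx, eq_inv_iff_mul_eq_one, ← perm_mul, ← perm_zero]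
    exact congrArg perm (Fin.ext (I_bound x.2).2.2)⟩

theorem image_card : Nat.card image = 128 := by
  show Nat.card (Set.range perm) = 128
  rw [Nat.card_range_of_injective perm_injective, Nat.card_fin]

theorem image_index : image.index = 315 := by
  have h := image.card_mul_index
  rw [image_card, Nat.card_perm, Nat.card_fin] at h
  have : (8 : ℕ).factorial = 40320 := rfl
  omega

/-- The table group is a Sylow subgroup. -/
noncomputable def syl : Sylow 2 (Equiv.Perm (Fin 8)) :=
  (IsPGroup.of_card (p := 2) (n := 7) image_card).toSylow (by rw [image_index]; decide)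

theorem syl_coe : ((syl : Sylow 2 (Equiv.Perm (Fin 8))) : Subgroup (Equiv.Perm (Fin 8))) = image := rfl

/-- A subgroup isomorphic to a Sylow subgroup of the symmetric group of degree 8 is coded by the table. -/
theorem exists_code {S : Type*} [Group S] (P : Subgroup S)
    (hP : ∃ T : Sylow 2 (Equiv.Perm (Fin 8)), Nonempty (↥P ≃* ↥(T : Subgroup (Equiv.Perm (Fin 8))))) :
    ∃ ι : ℕ → S, (∀ x < 128, ∀ y < 128, ι (M x y) = ι x * ι y) ∧
      (∀ x < 128, ∀ y < 128, ι x = ι y → x = y) ∧ ∀ g, g ∈ P ↔ ∃ x < 128, ι x = g := by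
  obtain ⟨T, ⟨e⟩⟩ := hP
  let e' : ↥P ≃* image := e.trans (T.equiv syl)
  let j : Fin 128 → image := fun x => ⟨perm x, x, rfl⟩
  refine ⟨fun x => if h : x < 128 then ((e'.symm (j ⟨x, h⟩) : P) : S) else 1, fun x hx y hy => ?_,
    fun x hx y hy h => ?_, fun g => ⟨fun hg => ?_, ?_⟩⟩
  · simp only [dif_pos hx, dif_pos hy, dif_pos (M_bound hx hy)]
    rw [← Subgroup.coe_mul, ← map_mul]
    congr 2
    exact Subtype.ext (perm_mul ⟨x, hx⟩ ⟨y, hy⟩)
  · simp only [dif_pos hx, dif_pos hy] at h
    have := e'.symm.injective (Subtype.ext h)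
    exact congrArg Fin.val (perm_injective (congrArg Subtype.val this))
  · obtain ⟨x, hx⟩ := (e' ⟨g, hg⟩).2
    refine ⟨x.1, x.2, ?_⟩
    simp only [dif_pos x.2, Fin.eta]
    rw [show j x = e' ⟨g, hg⟩ from Subtype.ext hx, MulEquiv.symm_apply_apply]
  · rintro ⟨x, hx, rfl⟩
    simp only [dif_pos hx]
    exact SetLike.coe_mem _

end Cfsg.Agent.TwoGroups.WreathEight
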